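import Cfsg.Agent.ZassAbelian.Final

/-!
A group of order `q (q ^ 2 - 1)` in which the elements of order divisible by `p` are `q ^ 2 - 1`
elements of order `p` and which has `q ^ 2` involutions is `PGL(2, q)`.
-/

set_option autoImplicit false
set_option linter.style.haveILetI false
set_option linter.unusedSectionVars false

namespace CfsgLib.PGLCount35

open MulAction
open scoped MatrixGroups

variable {G : Type*} [Group G] [Finite G] {p f q r : ℕ}

/-- A setting with `q ^ 2` involutions and `d = q - 1` has a commutative two-point stabiliser. -/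
theorem H_comm_of_involutions {Ω : Type*} [MulAction G Ω] (D : ZassAbelian.Setting G Ω)
    (hq : Odd (Nat.card D.F)) (hd : Nat.card D.H = Nat.card D.F - 1)
    (h2 : Nat.card {x : G // orderOf x = 2} = Nat.card D.F * Nat.card D.F) :
    ∀ a ∈ D.H, ∀ b ∈ D.H, a * b = b * a := by
  classical
  haveI := D.finite_Omega
  let e : {x : G // orderOf x = 2} × Ω ≃ {x : G × Ω // orderOf x.1 = 2} :=
    { toFun := fun v => ⟨(v.1.1, v.2), v.1.2⟩
      invFun := fun v => (⟨v.1.1, v.2⟩, v.1.2)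
      left_inv := fun v => rfl
      right_inv := fun v => rfl }
  have htot : Nat.card {x : G × Ω // orderOf x.1 = 2} =
      Nat.card D.F * Nat.card D.F * (Nat.card D.F + 1) := by
    rw [← Nat.card_congr e, Nat.card_prod, h2, D.card_Omega]
  have hsq : ∀ {x : G}, orderOf x = 2 → x * x = 1 ∧ x ≠ 1 := fun {x} hx =>
    ⟨by rw [← sq, ← hx, pow_orderOf_eq_one], fun e => by rw [e, orderOf_one] at hx; omega⟩
  -- a fixed incidence is a pair of fixed points
  have hex : ∀ v : {x : G × Ω // orderOf x.1 = 2 ∧ x.1 • x.2 = x.2},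
      ∃ b, b ≠ v.1.2 ∧ v.1.1 • b = b := fun v => D.exists_second_fixed hq (hsq v.2.1).1 v.2.2
  choose b hb1 hb2 using hex
  have hfix : Nat.card {x : G × Ω // orderOf x.1 = 2 ∧ x.1 • x.2 = x.2} ≤
      Nat.card {ab : Ω × Ω // ab.1 ≠ ab.2} := by
    refine Nat.card_le_card_of_injective (fun v => ⟨(v.1.2, b v), (hb1 v).symm⟩) ?_
    intro v w h
    have h' : (v.1.2, b v) = (w.1.2, b w) := congrArg Subtype.val h
    simp only [Prod.mk.injEq] at h'
    obtain ⟨ha, hbb⟩ := h'
    obtain ⟨g, hg1, hg2⟩ := D.pair v.1.2 (b v) D.i D.o (hb1 v).symm D.io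
    have hH : ∀ x : G, x • v.1.2 = v.1.2 → x • b v = b v → g * x * g⁻¹ ∈ D.H := fun x hx1 hx2 =>
      D.mem_H.2 ⟨by rw [← hg1, mul_smul, inv_smul_smul, mul_smul, hx1],
        by rw [← hg2, mul_smul, inv_smul_smul, mul_smul, hx2]⟩
    have hI : ∀ x : G, x * x = 1 → g * x * g⁻¹ * (g * x * g⁻¹) = 1 := fun x hx => by
      rw [show g * x * g⁻¹ * (g * x * g⁻¹) = g * (x * x) * g⁻¹ by group, hx]; group
    have hu := D.involution_unique (hH _ v.2.2 (hb2 v))
      (fun e => (hsq v.2.1).2 (conj_eq_one_iff.1 e)) (hI _ (hsq v.2.1).1)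
      (hH _ (ha ▸ w.2.2) (hbb ▸ hb2 w))
      (fun e => (hsq w.2.1).2 (conj_eq_one_iff.1 e)) (hI _ (hsq w.2.1).1)
    exact Subtype.ext (Prod.ext (mul_left_cancel (mul_right_cancel hu)) ha)
  have hpairs : Nat.card {ab : Ω × Ω // ab.1 ≠ ab.2} = (Nat.card D.F + 1) * Nat.card D.F := by
    haveI := Fintype.ofFinite Ω
    have h1 : Fintype.card {ab : Ω × Ω // ab.1 ≠ ab.2} = (Finset.univ : Finset Ω).offDiag.card := by
      rw [Fintype.card_subtype]; congr 1; ext ⟨a, b⟩; simp
    have h3 := D.card_Omega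
    rw [Nat.card_eq_fintype_card] at h3
    rw [Nat.card_eq_fintype_card, h1, Finset.offDiag_card, Finset.card_univ, h3]
    obtain ⟨n, hn⟩ : ∃ n, Nat.card D.F = n := ⟨_, rfl⟩
    rw [hn, Nat.mul_add, mul_one, Nat.add_sub_cancel]
  have hmv : Nat.card {x : G × Ω // orderOf x.1 = 2 ∧ x.1 • x.2 ≠ x.2} ≤
      (Nat.card D.F + 1) * Nat.card D.F * D.numSwaps := by
    rw [← D.card_moved]
    refine Nat.card_le_card_of_injective (fun v => ⟨v.1, (hsq v.2.1).1, v.2.2⟩) fun v w h => ?_
    exact Subtype.ext (congrArg (fun t => t.1) h :)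
  have hsplit : Nat.card {x : G × Ω // orderOf x.1 = 2} ≤
      Nat.card {x : G × Ω // orderOf x.1 = 2 ∧ x.1 • x.2 = x.2} +
        Nat.card {x : G × Ω // orderOf x.1 = 2 ∧ x.1 • x.2 ≠ x.2} := by
    rw [← Nat.card_sum]
    refine Nat.card_le_card_of_surjective
      (Sum.elim (fun v => ⟨v.1, v.2.1⟩) (fun v => ⟨v.1, v.2.1⟩)) fun v => ?_
    by_cases h : v.1.1 • v.1.2 = v.1.2
    · exact ⟨Sum.inl ⟨v.1, v.2, h⟩, rfl⟩
    · exact ⟨Sum.inr ⟨v.1, v.2, h⟩, rfl⟩
  have hpos : 0 < (Nat.card D.F + 1) * Nat.card D.F := Nat.mul_pos (by omega) Nat.card_pos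
  have he : Nat.card D.F ≤ 1 + D.numSwaps := by
    refine Nat.le_of_mul_le_mul_left ?_ hpos
    rw [htot] at hsplit
    rw [hpairs] at hfix
    nlinarith
  have := D.numSwaps_le
  obtain ⟨w, hw, hwi, -⟩ := D.exists_swap
  exact D.commute_of_inverted (D.inverted_of_numSwaps_eq (by omega) hw hwi)

/-- The recognition. -/
theorem recognise (hp : p.Prime) (hp2 : p ≠ 2) (hf : 1 ≤ f) (hq : q = p ^ f)
    (hr : r + 1 = q * q) (hN : Nat.card G = q * r)
    (hc2 : Nat.card {x : G // orderOf x = 2} = q * q)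
    (hcp : Nat.card {x : G // orderOf x = p} = r)
    (hkey : ∀ g : G, p ∣ orderOf g → orderOf g = p) :
    ∃ (K : Type) (_ : Field K) (_ : Fintype K), Fintype.card K = q ∧ Nonempty (G ≃* PGL(2, K)) := by
  classical
  haveI := Fact.mk hp
  have hq3 : 3 ≤ q := by
    have h3 : 3 ≤ p := by have := hp.two_le; omega
    rw [hq]
    exact h3.trans (Nat.le_self_pow (by omega) p)
  have hqodd : Odd q := hq ▸ (hp.odd_of_ne_two hp2).pow
  have hqq : q < q * q := by nlinarith
  have hpq : p ∣ q := hq ▸ dvd_pow_self p (by omega)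
  have hpr : ¬ p ∣ r := fun h => hp.not_dvd_one ((Nat.dvd_add_right h).1 (hr ▸ hpq.mul_right q))
  have hdvdq : ∀ {k : ℕ}, p ^ k ∣ q * r → p ^ k ∣ q := fun h =>
    ((hp.coprime_iff_not_dvd.2 hpr).pow_left _).dvd_of_dvd_mul_right h
  -- centralisers of elements of order `p`
  let C : G → Subgroup G := fun x => Subgroup.centralizer {x}
  have hmemC : ∀ {x y : G}, y ∈ C x ↔ y * x = x * y := fun {x y} =>
    Subgroup.mem_centralizer_singleton_iff
  have hxC : ∀ x, x ∈ C x := fun x => hmemC.2 rfl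
  have hexp : ∀ {x y : G}, orderOf x = p → y ∈ C x → y ^ p = 1 := by
    intro x y hx hy
    by_cases h : p ∣ orderOf y
    · rw [← hkey y h, pow_orderOf_eq_one]
    · have hc : Commute x y := (hmemC.1 hy).symm
      have h1 := hc.orderOf_mul_eq_mul_orderOf_of_coprime (hx ▸ hp.coprime_iff_not_dvd.2 h)
      have h2 := hkey (x * y) (by rw [h1, hx]; exact dvd_mul_right _ _)
      rw [h1, hx] at h2
      have : orderOf y = 1 := by
        nth_rewrite 2 [← mul_one p] at h2
        exact Nat.eq_of_mul_eq_mul_left hp.pos h2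
      rw [orderOf_eq_one_iff.1 this, one_pow]
  have hCp : ∀ {x : G}, orderOf x = p → IsPGroup p (C x) := fun hx y =>
    ⟨1, Subtype.ext (by rw [pow_one, Subgroup.coe_pow]; exact hexp hx y.2)⟩
  have hclass : ∀ {x : G}, orderOf x = p → Nat.card (C x) = q ∧
      ∀ y : G, orderOf y = p → ∃ g : G, g * x * g⁻¹ = y := by
    intro x hx
    let φ : G ⧸ C x → {y : G // orderOf y = p} := fun u => ⟨u.out * x * u.out⁻¹, by
      rw [← MulAut.conj_apply, MulEquiv.orderOf_eq]; exact hx⟩
    have hinj : Function.Injective φ := by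
      intro u v h
      have e : u.out * x * u.out⁻¹ = v.out * x * v.out⁻¹ := congrArg Subtype.val h
      rw [← u.out_eq', ← v.out_eq', QuotientGroup.eq, hmemC]
      calc u.out⁻¹ * v.out * x = u.out⁻¹ * (v.out * x * v.out⁻¹) * v.out := by group
        _ = u.out⁻¹ * (u.out * x * u.out⁻¹) * v.out := by rw [e]
        _ = x * (u.out⁻¹ * v.out) := by group
    have hle : (C x).index ≤ r := by
      rw [Subgroup.index_eq_card, ← hcp]
      exact Nat.card_le_card_of_injective φ hinj
    obtain ⟨k, hk⟩ := IsPGroup.iff_card.1 (hCp hx)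
    have hd : Nat.card (C x) ∣ q := by
      rw [hk]; exact hdvdq (hk ▸ hN ▸ (C x).card_subgroup_dvd_card)
    have hmul := (C x).card_mul_index
    rw [hN] at hmul
    have hC : Nat.card (C x) = q := by
      refine le_antisymm (Nat.le_of_dvd (by omega) hd) ?_
      refine Nat.le_of_mul_le_mul_right (hmul.symm.le.trans (Nat.mul_le_mul_left _ hle)) ?_
      have : 1 < q * q := by nlinarith
      omega
    rw [hC] at hmul
    have hi : (C x).index = r := Nat.eq_of_mul_eq_mul_left (by omega) hmul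
    refine ⟨hC, fun y hy => ?_⟩
    obtain ⟨u, hu⟩ := ((Nat.bijective_iff_injective_and_card φ).2
      ⟨hinj, by rw [← Subgroup.index_eq_card, hi, hcp]⟩).2 ⟨y, hy⟩
    exact ⟨u.out, congrArg Subtype.val hu⟩
  -- Sylow subgroups
  have hsylow : ∀ (P : Sylow p G), Nat.card P ∣ q := fun P => by
    obtain ⟨k, hk⟩ := IsPGroup.iff_card.1 P.2
    rw [hk]; exact hdvdq (hk ▸ hN ▸ (P : Subgroup G).card_subgroup_dvd_card)
  have hCS : ∀ {x : G}, orderOf x = p → ∃ P : Sylow p G, (P : Subgroup G) = C x := by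
    intro x hx
    obtain ⟨P, hP⟩ := (hCp hx).exists_le_sylow
    refine ⟨P, (Subgroup.eq_of_le_of_card_ge hP ?_).symm⟩
    rw [(hclass hx).1]
    exact Nat.le_of_dvd (by omega) (hsylow P)
  obtain ⟨x₀, hx₀⟩ := exists_prime_orderOf_dvd_card' (G := G) p (hN.symm ▸ hpq.mul_right r)
  obtain ⟨P₀, hP₀⟩ := hCS hx₀
  have hPcard : ∀ P : Sylow p G, Nat.card P = q := fun P => by
    rw [← (hclass hx₀).1, ← hP₀, Sylow.card_eq_multiplicity, Sylow.card_eq_multiplicity]
  -- an involution inverts the centraliser, which is therefore abelian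
  have habel : ∀ {x : G}, orderOf x = p → ∀ a ∈ C x, ∀ b ∈ C x, a * b = b * a := by
    intro x hx
    obtain ⟨g, hg⟩ := (hclass hx).2 x⁻¹ ((orderOf_inv x).trans hx)
    have hgg : g * g ∈ C x := by
      have h1 : g * x⁻¹ * g⁻¹ = x := by
        rw [show g * x⁻¹ * g⁻¹ = (g * x * g⁻¹)⁻¹ by group, hg, inv_inv]
      rw [hmemC]
      calc g * g * x = g * (g * x * g⁻¹) * g := by group
        _ = g * x⁻¹ * g⁻¹ * (g * g) := by rw [hg]; group
        _ = x * (g * g) := by rw [h1]
    obtain ⟨m, hm⟩ := hqodd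
    set h := g ^ q with hh
    have hgq : h = (g * g) ^ m * g := by rw [hh, hm, pow_succ, pow_mul, sq]
    have hhx : h * x * h⁻¹ = x⁻¹ := by
      have h1 := hmemC.1 ((C x).inv_mem ((C x).pow_mem hgg m))
      have h2 := hmemC.1 ((C x).inv_mem ((C x).inv_mem ((C x).pow_mem hgg m)))
      rw [inv_inv] at h2
      rw [hgq, mul_inv_rev, show (g * g) ^ m * g * x * (g⁻¹ * ((g * g) ^ m)⁻¹) =
        (g * g) ^ m * (g * x * g⁻¹) * ((g * g) ^ m)⁻¹ by group, hg]
      have h3 : (g * g) ^ m * x⁻¹ = x⁻¹ * (g * g) ^ m := by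
        exact ((show Commute ((g * g) ^ m) x from h2).inv_right).eq
      rw [h3, mul_inv_cancel_right]
    have hh2 : h * h = 1 := by
      rw [hh, ← (Commute.refl g).mul_pow]
      exact orderOf_dvd_iff_pow_eq_one.1
        ((orderOf_dvd_of_pow_eq_one (hexp hx hgg)).trans hpq)
    have hh1 : h ≠ 1 := by
      intro e
      rw [e, one_mul, inv_one, mul_one] at hhx
      have h2 : orderOf x ∣ 2 := orderOf_dvd_of_pow_eq_one (by
        rw [sq]; nth_rewrite 1 [hhx]; exact inv_mul_cancel x)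
      rw [hx] at h2
      exact hp2 ((Nat.prime_dvd_prime_iff_eq hp Nat.prime_two).1 h2)
    have ho : orderOf h = 2 := orderOf_eq_prime (by rw [sq, hh2]) hh1
    have hnorm : ∀ c ∈ C x, h * c * h⁻¹ ∈ C x := by
      intro c hc
      have h1 := hmemC.1 hc
      have h3 : h * c * h⁻¹ * (h * x * h⁻¹) = h * x * h⁻¹ * (h * c * h⁻¹) := by
        rw [show h * c * h⁻¹ * (h * x * h⁻¹) = h * (c * x) * h⁻¹ by group, h1]; group
      rw [hhx] at h3
      rw [hmemC]
      have h4 : Commute (h * c * h⁻¹) x⁻¹ := h3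
      simpa using h4.inv_right.eq
    let φ : C x →* C x := MonoidHom.mk' (fun c => ⟨h * c * h⁻¹, hnorm c c.2⟩)
      (fun a b => Subtype.ext (by simp [mul_assoc]))
    have hfpf : MonoidHom.FixedPointFree φ := by
      intro c hc
      by_contra hne
      have e : h * (c : G) * h⁻¹ = c := congrArg Subtype.val hc
      have hcp' : orderOf (c : G) = p :=
        orderOf_eq_prime (hexp hx c.2) (fun e' => hne (Subtype.ext e'))
      have h1 := (show Commute (c : G) h from (mul_inv_eq_iff_eq_mul.1 e).symm)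
        |>.orderOf_mul_eq_mul_orderOf_of_coprime
          (by rw [hcp', ho]; exact (Nat.coprime_primes hp Nat.prime_two).2 hp2)
      rw [hcp', ho] at h1
      have h2 := hkey _ (h1 ▸ dvd_mul_right p 2)
      rw [h2] at h1
      have := hp.pos
      omega
    have hinv : Function.Involutive φ := fun c => Subtype.ext (by
      show h * (h * (c : G) * h⁻¹) * h⁻¹ = c
      rw [show h * (h * (c : G) * h⁻¹) * h⁻¹ = h * h * c * (h * h)⁻¹ by group, hh2]; group)
    intro a ha b hb
    exact congrArg Subtype.val (hfpf.commute_all_of_involutive hinv ⟨a, ha⟩ ⟨b, hb⟩).eq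
  have hordP : ∀ (P : Sylow p G) {u : G}, u ∈ (P : Subgroup G) → u ≠ 1 → orderOf u = p := by
    intro P u hu hu1
    refine hkey u ?_
    obtain ⟨k, hk⟩ := P.2 ⟨u, hu⟩
    obtain ⟨j, -, hj⟩ := (Nat.dvd_prime_pow hp).1
      (orderOf_dvd_of_pow_eq_one (show u ^ p ^ k = 1 from congrArg Subtype.val hk))
    rcases j with _ | j
    · exact absurd (orderOf_eq_one_iff.1 hj) hu1
    · exact hj ▸ dvd_pow_self p (Nat.succ_ne_zero j)
  have hcomm : ∀ (P : Sylow p G), ∀ u ∈ (P : Subgroup G), ∀ v ∈ (P : Subgroup G),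
      u * v = v * u := by
    intro P u hu v hv
    obtain ⟨g, hg⟩ := MulAction.exists_smul_eq G P P₀
    have hin : ∀ {w : G}, w ∈ (P : Subgroup G) → g * w * g⁻¹ ∈ C x₀ := fun {w} hw => by
      rw [← hP₀, ← hg]
      exact Subgroup.smul_mem_pointwise_smul w (MulAut.conj g) _ hw
    have := habel hx₀ _ (hin hu) _ (hin hv)
    calc u * v = g⁻¹ * (g * u * g⁻¹ * (g * v * g⁻¹)) * g := by group
      _ = g⁻¹ * (g * v * g⁻¹ * (g * u * g⁻¹)) * g := by rw [this]
      _ = v * u := by group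
  have hcent : ∀ (P : Sylow p G) {u : G}, u ∈ (P : Subgroup G) → u ≠ 1 →
      (P : Subgroup G) = C u := fun P u hu hu1 =>
    Subgroup.eq_of_le_of_card_ge (fun v hv => hmemC.2 (hcomm P v hv u hu))
      (by rw [(hclass (hordP P hu hu1)).1, hPcard])
  have hTI : ∀ (P Q : Sylow p G) {u : G}, u ∈ (P : Subgroup G) → u ∈ (Q : Subgroup G) → u ≠ 1 →
      P = Q := fun P Q u hP hQ hu1 => Sylow.ext ((hcent P hP hu1).trans (hcent Q hQ hu1).symm)
  -- there are `q + 1` Sylow subgroups
  have hnp : Nat.card (Sylow p G) = q + 1 := by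
    haveI := Fintype.ofFinite (Sylow p G)
    let e : (Σ P : Sylow p G, {u : (P : Subgroup G) // u ≠ 1}) → {y : G // orderOf y = p} :=
      fun s => ⟨s.2.1, hordP s.1 s.2.1.2 fun e => s.2.2 (Subtype.ext e)⟩
    have he : Function.Bijective e := by
      constructor
      · rintro ⟨P, ⟨u, hu⟩, hu1⟩ ⟨Q, ⟨v, hv⟩, hv1⟩ h
        have h' : u = v := congrArg Subtype.val h
        subst h'
        obtain rfl := hTI P Q hu hv (fun e => hu1 (Subtype.ext e))
        rfl
      · rintro ⟨y, hy⟩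
        obtain ⟨P, hP⟩ := hCS hy
        exact ⟨⟨P, ⟨y, hP ▸ hxC y⟩, fun e => hp.ne_one (by
          rw [← hy, orderOf_eq_one_iff]; exact congrArg Subtype.val e)⟩, rfl⟩
    have h1 := Nat.card_eq_of_bijective e he
    rw [hcp, Nat.card_sigma, Finset.sum_congr rfl (g := fun _ => q - 1), Finset.sum_const,
      smul_eq_mul, Finset.card_univ, ← Nat.card_eq_fintype_card] at h1
    · obtain ⟨t, ht⟩ : ∃ t, q = t + 1 := ⟨q - 1, by omega⟩
      rw [ht, Nat.add_sub_cancel] at h1
      refine Nat.eq_of_mul_eq_mul_right (show 0 < t by omega) ?_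
      rw [ht] at hr ⊢
      nlinarith
    · intro P _
      haveI := Fintype.ofFinite (P : Subgroup G)
      rw [Nat.card_eq_fintype_card, Fintype.card_subtype_compl, Fintype.card_subtype_eq,
        ← Nat.card_eq_fintype_card]
      exact congrArg (fun n => n - 1) (hPcard P)
  -- the setting
  haveI : Nontrivial (Sylow p G) := Finite.one_lt_card_iff_nontrivial.1 (by omega)
  obtain ⟨Q₀, hQ₀⟩ := exists_ne P₀
  have hfree : ∀ u ∈ (P₀ : Subgroup G), ∀ Q : Sylow p G, Q ≠ P₀ → u • Q = Q → u = 1 := by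
    intro u hu Q hQ he
    by_contra hu1
    have h1 : u ∈ (P₀ : Subgroup G) ⊓ Subgroup.normalizer (Q : Set G) :=
      ⟨hu, Sylow.smul_eq_iff_mem_normalizer.1 he⟩
    rw [P₀.2.inf_normalizer_sylow Q] at h1
    exact hQ (hTI Q P₀ h1.2 hu hu1)
  have hfix : ∀ u ∈ (P₀ : Subgroup G), u • P₀ = P₀ := fun u hu =>
    Sylow.smul_eq_iff_mem_normalizer.2 (Subgroup.le_normalizer hu)
  have hreg : ∀ A B : Sylow p G, A ≠ P₀ → B ≠ P₀ → ∃ u ∈ (P₀ : Subgroup G), u • A = B := by
    intro A B hA hB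
    let ψ : ↥(P₀ : Subgroup G) → {Q : Sylow p G // Q ≠ P₀} := fun u =>
      ⟨(u : G) • A, fun e => hA (smul_left_cancel (u : G) (e.trans (hfix u u.2).symm))⟩
    have hψ : Function.Bijective ψ := by
      refine (Nat.bijective_iff_injective_and_card ψ).2 ⟨fun u v e => ?_, ?_⟩
      · have e' : (u : G) • A = (v : G) • A := congrArg Subtype.val e
        have := hfree _ ((P₀ : Subgroup G).mul_mem ((P₀ : Subgroup G).inv_mem v.2) u.2) A hA
          (by rw [mul_smul, e', inv_smul_smul])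
        exact Subtype.ext (inv_mul_eq_one.1 this).symm
      · have := hnp
        rw [← Nat.card_congr (Equiv.optionSubtypeNe P₀), Finite.card_option] at this
        have := hPcard P₀
        omega
    obtain ⟨u, hu⟩ := hψ.2 ⟨B, hB⟩
    exact ⟨u, u.2, congrArg Subtype.val hu⟩
  have hnorm : ∀ g : G, g • P₀ = P₀ → ∀ u ∈ (P₀ : Subgroup G), g * u * g⁻¹ ∈ (P₀ : Subgroup G) := by
    intro g hg u hu
    conv => arg 1; rw [← hg]
    exact Subgroup.smul_mem_pointwise_smul u (MulAut.conj g) _ hu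
  have hto : ∀ a b : Sylow p G, a ≠ b → ∃ g : G, g • a = P₀ ∧ g • b = Q₀ := by
    intro a b hab
    obtain ⟨g, hg⟩ := MulAction.exists_smul_eq G a P₀
    obtain ⟨u, hu, hue⟩ := hreg (g • b) Q₀
      (fun e => hab (smul_left_cancel g (hg.trans e.symm))) hQ₀
    exact ⟨u * g, by rw [mul_smul, hg, hfix u hu], by rw [mul_smul, hue]⟩
  let D : ZassAbelian.Setting G (Sylow p G) :=
    { i := P₀
      o := Q₀
      io := hQ₀.symm
      pair := fun a b c d hab hcd => by
        obtain ⟨g, h1, h2⟩ := hto a b hab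
        obtain ⟨k, h3, h4⟩ := hto c d hcd
        exact ⟨k⁻¹ * g, by rw [mul_smul, h1, ← h3, inv_smul_smul],
          by rw [mul_smul, h2, ← h4, inv_smul_smul]⟩
      three := fun g a b c hab hbc hac ha hb hc => by
        obtain ⟨k, h1, h2⟩ := hto a b hab
        have hcP : k • c ≠ P₀ := fun e => hac (smul_left_cancel k (h1.trans e.symm))
        obtain ⟨u, hu, hue⟩ := hreg Q₀ (k • c) hQ₀ hcP
        have e1 : (k * g * k⁻¹) • P₀ = P₀ := by
          rw [← h1, mul_smul, inv_smul_smul, mul_smul, ha]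
        have e2 : (k * g * k⁻¹) • Q₀ = Q₀ := by
          rw [← h2, mul_smul, inv_smul_smul, mul_smul, hb]
        have e3 : (k * g * k⁻¹) • (k • c) = k • c := by rw [mul_smul, inv_smul_smul, mul_smul, hc]
        set g' := k * g * k⁻¹ with hg'
        have hgu : u⁻¹ * (g' * u * g'⁻¹) = 1 := by
          refine hfree _ ((P₀ : Subgroup G).mul_mem ((P₀ : Subgroup G).inv_mem hu)
            (hnorm g' e1 u hu)) Q₀ hQ₀ ?_
          rw [mul_smul, mul_smul, mul_smul, inv_smul_eq_iff.2 e2.symm, hue, e3, ← hue,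
            inv_smul_smul]
        have hgC : g' * u = u * g' := mul_inv_eq_iff_eq_mul.1 (inv_mul_eq_one.1 hgu).symm
        have hu1 : u ≠ 1 := by
          rintro rfl
          rw [one_smul] at hue
          exact hbc (smul_left_cancel k (h2.trans hue))
        have hgP : g' ∈ (P₀ : Subgroup G) := by rw [hcent P₀ hu hu1]; exact hmemC.2 hgC
        have := hfree g' hgP Q₀ hQ₀ e2
        rw [hg'] at this
        exact conj_eq_one_iff.1 this
      third := by
        haveI := Fintype.ofFinite (Sylow p G)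
        obtain ⟨c, -, hc⟩ := Finset.exists_mem_notMem_of_card_lt_card
          (s := ({P₀, Q₀} : Finset (Sylow p G))) (t := Finset.univ) (by
            rw [Finset.card_univ, ← Nat.card_eq_fintype_card, hnp,
              Finset.card_pair hQ₀.symm]; omega)
        simp at hc
        exact ⟨c, hc.1, hc.2⟩
      F := P₀
      Fle := hfix
      Fnorm := hnorm
      Fcomm := hcomm P₀
      reg := hreg
      free := hfree }
  have hF : Nat.card D.F = q := hPcard P₀
  have hd : Nat.card D.H = Nat.card D.F - 1 := by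
    have h1 := D.card_G
    rw [hN, hF] at h1
    rw [hF]
    have h2 : r = (q + 1) * Nat.card D.H := Nat.eq_of_mul_eq_mul_left (show 0 < q by omega)
      (by rw [h1]; ring)
    obtain ⟨t, ht⟩ : ∃ t, q = t + 1 := ⟨q - 1, by omega⟩
    rw [ht, Nat.add_sub_cancel]
    refine Nat.eq_of_mul_eq_mul_left (show 0 < q + 1 by omega) ?_
    rw [← h2]
    rw [ht] at hr ⊢
    nlinarith
  obtain ⟨K, iF, iT, hK, he⟩ := ZassAbelian.pgl_of_commutative D hd
    (H_comm_of_involutions D (by rw [hF]; exact hqodd) hd (by rw [hF]; exact hc2))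
  exact ⟨K, iF, iT, hK.trans hF, he⟩

end CfsgLib.PGLCount35
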