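import Cfsg.Agent.S3995

/-!
A group of order `q (q ^ 2 - 1)` with the order counts of `PGL(2, q)`: every element of order
divisible by `p` has order `p`, and there are `q ^ 2 - 1` of them.
-/

set_option autoImplicit false
set_option linter.style.haveILetI false

namespace CfsgLib.PGLCount35

open Cfsg.Agent.S3995 (cnt totient_dvd_cnt dvd_sum_cnt)

variable {G : Type*} [Group G] [Finite G]

theorem sum_cnt_card {N : ℕ} (hN : Nat.card G = N) : ∑ d ∈ N.divisors, cnt G d = N := by
  classical
  haveI := Fintype.ofFinite G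
  have hN0 : N ≠ 0 := hN ▸ Nat.card_pos.ne'
  conv_rhs => rw [← hN, Nat.card_eq_fintype_card, ← Finset.card_univ,
    Finset.card_eq_sum_card_fiberwise (f := orderOf) (t := N.divisors) (fun g _ =>
      Nat.mem_divisors.2 ⟨hN ▸ orderOf_dvd_natCard g, hN0⟩)]
  refine Finset.sum_congr rfl fun d _ => ?_
  rw [cnt, Nat.card_eq_fintype_card, Fintype.card_subtype]

theorem cnt_pos (g : G) : 0 < cnt G (orderOf g) :=
  haveI : Nonempty {x : G // orderOf x = orderOf g} := ⟨⟨g, rfl⟩⟩
  Nat.card_pos

theorem cnt_one : cnt G 1 = 1 := by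
  haveI : Unique {g : G // orderOf g = 1} :=
    ⟨⟨⟨1, orderOf_one⟩⟩, fun g => Subtype.ext (orderOf_eq_one_iff.mp g.2)⟩
  exact Nat.card_unique

/-- The consequences of the counts. -/
theorem facts {p f q r : ℕ} (hp : p.Prime) (hp2 : p ≠ 2) (hf : 1 ≤ f) (hq : q = p ^ f)
    (hr : r + 1 = q * q) (hN : Nat.card G = q * r)
    (hinv : ∃ n, cnt G n = q * q)
    (hv : ∀ n, 0 < cnt G n → cnt G n = 1 ∨ cnt G n = r ∨ q ∣ cnt G n) :
    cnt G 2 = q * q ∧ cnt G p = r ∧ ∀ g : G, p ∣ orderOf g → orderOf g = p := by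
  classical
  have hq3 : 3 ≤ q := by
    have h3 : 3 ≤ p := by have := hp.two_le; omega
    rw [hq]
    exact h3.trans (Nat.le_self_pow (by omega) p)
  have hqq : q < q * q := by nlinarith
  have hqodd : Odd (q * q) := by
    have : Odd q := hq ▸ (hp.odd_of_ne_two hp2).pow
    exact this.mul this
  have hodd : ∀ n, Odd (cnt G n) → n = 1 ∨ n = 2 ∨ n = 0 := by
    intro n hn
    by_contra h
    push Not at h
    have h1 := (Nat.totient_even (n := n) (by omega)).two_dvd.trans (totient_dvd_cnt (G := G) n)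
    exact Nat.not_even_iff_odd.2 hn (even_iff_two_dvd.2 h1)
  have hc0 : cnt G 0 = 0 := by
    haveI : IsEmpty {g : G // orderOf g = 0} := ⟨fun g => (orderOf_pos g.1).ne' g.2⟩
    exact Nat.card_of_isEmpty
  have hc2 : cnt G 2 = q * q := by
    obtain ⟨n, hn⟩ := hinv
    rcases hodd n (hn.symm ▸ hqodd) with rfl | rfl | rfl
    · rw [cnt_one] at hn; omega
    · exact hn
    · rw [hc0] at hn; omega
  have hpq : p ∣ q := hq ▸ dvd_pow_self p (by omega)
  have hN0 : q * r ≠ 0 := hN ▸ Nat.card_pos.ne'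
  have hpr : ¬ p ∣ r := fun h => hp.not_dvd_one ((Nat.dvd_add_right h).1 (hr ▸ hpq.mul_right q))
  -- a count congruent to one or minus one
  have hone : ∀ n, cnt G n = 1 → n = 1 := by
    intro n hn
    rcases hodd n (hn.symm ▸ odd_one) with h | h | h
    · exact h
    · rw [h, hc2] at hn; omega
    · rw [h, hc0] at hn; omega
  have hcp : cnt G p = r := by
    obtain ⟨x, hx⟩ := exists_prime_orderOf_dvd_card' (G := G) (hp := ⟨hp⟩) p
      (hN.symm ▸ hpq.mul_right r)
    rcases hv p (hx ▸ cnt_pos x) with h | h | h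
    · exact absurd (hone p h) hp.ne_one
    · exact h
    · exfalso
      have h1 := dvd_sum_cnt (G := G) hp.ne_zero (hN.symm ▸ hpq.mul_right r)
      rw [hp.sum_divisors, cnt_one] at h1
      exact hp.not_dvd_one ((Nat.dvd_add_right (hpq.trans h)).1 h1)
  have hrcast : (r : ZMod q) = -1 := by
    have h := congrArg (fun k : ℕ => (k : ZMod q)) hr
    simp at h
    exact eq_neg_of_add_eq_zero_left h
  have hcast : ∀ n, n ≠ 1 → cnt G n ≠ r → (cnt G n : ZMod q) = 0 := by
    intro n h1 h2
    rcases Nat.eq_zero_or_pos (cnt G n) with h | h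
    · rw [h, Nat.cast_zero]
    rcases hv n h with h' | h' | h'
    · exact absurd (hone n h') h1
    · exact absurd h' h2
    · exact (ZMod.natCast_eq_zero_iff _ _).2 h'
  have hsum := sum_cnt_card hN
  -- only `p` occurs `r` times
  set D := (q * r).divisors with hD
  set S := D.filter (fun n => cnt G n = r) with hS
  have hr1 : 1 < r := by omega
  have hS1 : S.card = 1 := by
    have h1 : ((∑ d ∈ D, cnt G d : ℕ) : ZMod q) = 1 - (S.card : ZMod q) := by
      rw [Nat.cast_sum, ← Finset.sum_filter_add_sum_filter_not D (fun n => cnt G n = r), ← hS,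
        Finset.sum_congr rfl (g := fun _ => (-1 : ZMod q))
          (fun n hn => by rw [(Finset.mem_filter.1 hn).2, hrcast]),
        Finset.sum_eq_single_of_mem (s := D.filter fun n => ¬cnt G n = r) 1
          (Finset.mem_filter.2 ⟨Nat.one_mem_divisors.2 hN0, by rw [cnt_one]; omega⟩)
          (fun n hn h1 => hcast n h1 (Finset.mem_filter.1 hn).2),
        cnt_one, Finset.sum_const]
      simp
      ring
    rw [hsum] at h1
    simp at h1
    have h2 : (S.card : ZMod q) = ((1 : ℕ) : ZMod q) := by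
      rw [Nat.cast_one]; exact (sub_eq_zero.1 h1.symm).symm
    rw [ZMod.natCast_eq_natCast_iff'] at h2
    have h3 : S.card * r ≤ q * r := by
      rw [← hsum, ← smul_eq_mul, ← Finset.sum_const,
        Finset.sum_congr rfl (fun n hn => ((Finset.mem_filter.1 hn).2).symm)]
      exact Finset.sum_le_sum_of_subset (Finset.filter_subset _ _)
    have h4 : S.card ≤ q := Nat.le_of_mul_le_mul_right h3 (by omega)
    rcases eq_or_lt_of_le h4 with h5 | h5
    · rw [h5, Nat.mod_self, Nat.mod_eq_of_lt (by omega)] at h2; omega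
    · rwa [Nat.mod_eq_of_lt h5, Nat.mod_eq_of_lt (by omega)] at h2
  have hpS : p ∈ S := Finset.mem_filter.2 ⟨Nat.mem_divisors.2 ⟨hpq.mul_right r, hN0⟩, hcp⟩
  -- the elements of order dividing `r`
  set A := ∑ d ∈ r.divisors, cnt G d with hA
  have hAdvd : r ∣ A := dvd_sum_cnt (by omega) (hN.symm ▸ dvd_mul_left r q)
  have hAcast : (A : ZMod q) = 1 := by
    rw [hA, Nat.cast_sum, Finset.sum_eq_single_of_mem 1 (Nat.one_mem_divisors.2 (by omega)),
      cnt_one, Nat.cast_one]
    intro d hd h1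
    refine hcast d h1 fun h => hpr ?_
    have hdS : d ∈ S := Finset.mem_filter.2
      ⟨Nat.mem_divisors.2 ⟨(Nat.dvd_of_mem_divisors hd).mul_left q, hN0⟩, h⟩
    rw [← Finset.card_le_one.1 hS1.le d hdS p hpS]
    exact Nat.dvd_of_mem_divisors hd
  obtain ⟨k, hk⟩ := hAdvd
  have hpnot : p ∉ r.divisors := fun h => hpr (Nat.dvd_of_mem_divisors h)
  have hsub : insert p r.divisors ⊆ D := by
    intro d hd
    rcases Finset.mem_insert.1 hd with rfl | hd
    · exact Nat.mem_divisors.2 ⟨hpq.mul_right r, hN0⟩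
    · exact Nat.mem_divisors.2 ⟨(Nat.dvd_of_mem_divisors hd).mul_left q, hN0⟩
  have hins : ∑ d ∈ insert p r.divisors, cnt G d = r + r * k := by
    rw [Finset.sum_insert hpnot, hcp, ← hk, hA]
  have hkq : k + 1 = q := by
    have h1 : q ∣ k + 1 := by
      rw [← ZMod.natCast_eq_zero_iff]
      rw [hk, Nat.cast_mul, hrcast] at hAcast
      push_cast
      linear_combination -hAcast
    have h2 : (k + 1) * r ≤ q * r := by
      have := Finset.sum_le_sum_of_subset (f := cnt G) hsub
      rw [hins, hsum] at this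
      linarith
    exact le_antisymm (Nat.le_of_mul_le_mul_right h2 (by omega)) (Nat.le_of_dvd (by omega) h1)
  refine ⟨hc2, hcp, fun g hg => ?_⟩
  by_contra hne
  have hgD : orderOf g ∈ D \ insert p r.divisors := by
    refine Finset.mem_sdiff.2 ⟨Nat.mem_divisors.2 ⟨hN ▸ orderOf_dvd_natCard g, hN0⟩, ?_⟩
    rintro h
    rcases Finset.mem_insert.1 h with h | h
    · exact hne h
    · exact hpr (hg.trans (Nat.dvd_of_mem_divisors h))
  have h1 := Finset.sum_sdiff (f := cnt G) hsub
  have h2 := Finset.single_le_sum (f := cnt G) (fun _ _ => Nat.zero_le _) hgD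
  have h3 := cnt_pos g
  rw [hins, hsum] at h1
  subst hkq
  nlinarith

end CfsgLib.PGLCount35
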