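import Cfsg.Agent.ZassAbelian.Recognise

/-!
The numbers of elements of each order in `PGL(2, q)`, `q` odd: `q ^ 2` involutions,
`q ^ 2 - 1` elements of order `p`, and a multiple of `q` for every other order except one.
-/

set_option autoImplicit false
set_option linter.style.haveILetI false
set_option linter.unusedSectionVars false

namespace CfsgLib.PGLCount35

open Matrix
open scoped MatrixGroups

/-- A free action: the order divides the number of points. -/
theorem card_dvd_free {A X : Type*} [Group A] [MulAction A X] [Finite A] [Finite X]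
    (h : ∀ x : X, MulAction.stabilizer A x = ⊥) : Nat.card A ∣ Nat.card X := by
  classical
  haveI := Fintype.ofFinite (MulAction.orbitRel.Quotient A X)
  haveI := Fintype.ofFinite A
  haveI := Fintype.ofFinite X
  rw [Nat.card_congr (MulAction.selfEquivSigmaOrbitsQuotientStabilizer A X), Nat.card_sigma]
  refine Finset.dvd_sum fun w _ => ?_
  rw [← Subgroup.index_eq_card, h, Subgroup.index_bot]

variable {F : Type*} [Field F] [Fintype F] [DecidableEq F]

/-- `mk` of a matrix with nonzero determinant. -/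
noncomputable def cl (M : Matrix (Fin 2) (Fin 2) F) (h : M.det ≠ 0) : PGL(2, F) :=
  ProjGenLinGroup.mk (GeneralLinearGroup.mkOfDetNeZero M h)

theorem exists_cl (g : PGL(2, F)) : ∃ (M : Matrix (Fin 2) (Fin 2) F) (h : M.det ≠ 0), cl M h = g := by
  obtain ⟨x, rfl⟩ := ProjGenLinGroup.mk_surjective g
  have hd : (x : Matrix (Fin 2) (Fin 2) F).det ≠ 0 := (GeneralLinearGroup.det x).ne_zero
  exact ⟨x, hd, congrArg ProjGenLinGroup.mk (Units.ext rfl)⟩

theorem cl_eq_cl {M N : Matrix (Fin 2) (Fin 2) F} (hM : M.det ≠ 0) (hN : N.det ≠ 0) :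
    cl M hM = cl N hN ↔ ∃ s : F, s ≠ 0 ∧ N = s • M := by
  rw [cl, cl, ProjGenLinGroup.mk_eq_mk_iff]
  constructor
  · rintro ⟨u, hu⟩
    refine ⟨u, u.ne_zero, ?_⟩
    have h := congrArg Units.val hu
    rw [Units.val_mul, GeneralLinearGroup.coe_scalar] at h
    rw [show N = _ from h.symm, Matrix.scalar_apply, ← Matrix.smul_one_eq_diagonal, Matrix.mul_smul,
      mul_one]
    rfl
  · rintro ⟨s, hs, hN'⟩
    refine ⟨Units.mk0 s hs, Units.ext ?_⟩
    rw [Units.val_mul, GeneralLinearGroup.coe_scalar, Matrix.scalar_apply,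
      ← Matrix.smul_one_eq_diagonal, Matrix.mul_smul, mul_one]
    exact hN'.symm

theorem cl_mul {M N : Matrix (Fin 2) (Fin 2) F} (hM : M.det ≠ 0) (hN : N.det ≠ 0)
    (h : (M * N).det ≠ 0) : cl M hM * cl N hN = cl (M * N) h := by
  rw [cl, cl, cl, ← map_mul]
  exact congrArg ProjGenLinGroup.mk (Units.ext rfl)

omit [Fintype F] [DecidableEq F] in
theorem det_one_ne : (1 : Matrix (Fin 2) (Fin 2) F).det ≠ 0 := by rw [det_one]; exact one_ne_zero

theorem cl_one : cl (1 : Matrix (Fin 2) (Fin 2) F) det_one_ne = 1 := by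
  rw [cl, ← map_one ProjGenLinGroup.mk]
  exact congrArg ProjGenLinGroup.mk (Units.ext rfl)

theorem cl_eq_one {M : Matrix (Fin 2) (Fin 2) F} (hM : M.det ≠ 0) :
    cl M hM = 1 ↔ M 0 1 = 0 ∧ M 1 0 = 0 ∧ M 0 0 = M 1 1 := by
  rw [← cl_one, cl_eq_cl]
  constructor
  · rintro ⟨s, hs, h⟩
    have h01 := congrFun (congrFun h 0) 1
    have h10 := congrFun (congrFun h 1) 0
    have h00 := congrFun (congrFun h 0) 0
    have h11 := congrFun (congrFun h 1) 1
    simp at h01 h10 h00 h11
    refine ⟨h01.resolve_left hs, h10.resolve_left hs, mul_left_cancel₀ hs (h00.symm.trans h11)⟩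
  · rintro ⟨h01, h10, h00⟩
    have ha : M 0 0 ≠ 0 := fun e => hM (by rw [det_fin_two, e, h10]; ring)
    refine ⟨(M 0 0)⁻¹, inv_ne_zero ha, ?_⟩
    ext i j
    fin_cases i <;> fin_cases j <;> simp [h01, h10, ← h00, ha]

theorem cl_pow {M : Matrix (Fin 2) (Fin 2) F} (hM : M.det ≠ 0) (k : ℕ) :
    ∃ h, cl M hM ^ k = cl (M ^ k) h := by
  refine ⟨by rw [det_pow]; exact pow_ne_zero k hM, ?_⟩
  rw [cl, cl, ← map_pow]
  exact congrArg ProjGenLinGroup.mk (Units.ext (Units.val_pow_eq_pow_val _ k))

/-- The number of involutions. -/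
theorem card_involutions (h2 : (2 : F) ≠ 0) :
    Nat.card {g : PGL(2, F) // orderOf g = 2} = Fintype.card F * Fintype.card F := by
  let m : F × F → Matrix (Fin 2) (Fin 2) F := fun v =>
    if 1 + v.1 * v.2 = 0 then !![0, 1; v.2, 0] else !![1, v.1; v.2, -1]
  have hm : ∀ v, (m v).det ≠ 0 := by
    intro v
    by_cases hv : 1 + v.1 * v.2 = 0
    · simp only [m, if_pos hv, det_fin_two_of]
      intro e
      simp at e
      simp [e] at hv
    · simp only [m, if_neg hv, det_fin_two_of]
      intro e
      exact hv (by linear_combination -e)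
  have hord : ∀ v, orderOf (cl (m v) (hm v)) = 2 := by
    intro v
    refine orderOf_eq_prime ?_ ?_
    · rw [sq, cl_mul _ _ (by rw [det_mul]; exact mul_ne_zero (hm v) (hm v)), cl_eq_one]
      by_cases hv : 1 + v.1 * v.2 = 0
      · simp [m, if_pos hv]
      · simp [m, if_neg hv]; ring
    · rw [Ne, cl_eq_one]
      by_cases hv : 1 + v.1 * v.2 = 0
      · simp [m, if_pos hv]
      · simp only [m, if_neg hv]
        rintro ⟨-, -, e⟩
        simp at e
        exact h2 (by linear_combination e)
  have hbij : Function.Bijective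
      (fun v => (⟨cl (m v) (hm v), hord v⟩ : {g : PGL(2, F) // orderOf g = 2})) := by
    constructor
    · intro v w h
      obtain ⟨s, hs, e⟩ := (cl_eq_cl _ _).1 (congrArg Subtype.val h)
      have e00 := congrFun (congrFun e 0) 0
      have e01 := congrFun (congrFun e 0) 1
      have e10 := congrFun (congrFun e 1) 0
      by_cases hv : 1 + v.1 * v.2 = 0 <;> by_cases hw : 1 + w.1 * w.2 = 0 <;>
        simp [m, hv, hw] at e00 e01 e10
      · subst e01
        rw [one_mul] at e10
        have hv0 : v.2 ≠ 0 := fun e => by simp [e] at hv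
        refine Prod.ext (mul_right_cancel₀ hv0 ?_) e10.symm
        rw [e10] at hw
        linear_combination hv - hw
      · exact absurd e00.symm hs
      · subst e00
        rw [one_mul] at e01 e10
        exact Prod.ext e01.symm e10.symm
    · rintro ⟨g, hg⟩
      obtain ⟨M, hM, rfl⟩ := exists_cl g
      have h1 : cl M hM ≠ 1 := fun e => by rw [e, orderOf_one] at hg; omega
      have hsq := pow_orderOf_eq_one (cl M hM)
      rw [hg, sq, cl_mul _ _ (by rw [det_mul]; exact mul_ne_zero hM hM), cl_eq_one] at hsq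
      rw [Ne, cl_eq_one] at h1
      obtain ⟨s01, s10, s00⟩ := hsq
      simp [Matrix.mul_apply, Fin.sum_univ_two] at s01 s10 s00
      have htr : M 1 1 = -M 0 0 := by
        by_contra hne
        have ht : M 0 0 + M 1 1 ≠ 0 := fun e => hne (by linear_combination e)
        have hb : M 0 1 = 0 :=
          (mul_eq_zero.1 (show M 0 1 * (M 0 0 + M 1 1) = 0 by linear_combination s01)).resolve_right ht
        have hc : M 1 0 = 0 :=
          (mul_eq_zero.1 (show M 1 0 * (M 0 0 + M 1 1) = 0 by linear_combination s10)).resolve_right ht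
        exact h1 ⟨hb, hc, sub_eq_zero.1 <| (mul_eq_zero.1 (show (M 0 0 - M 1 1) * (M 0 0 + M 1 1) = 0
          by linear_combination s00)).resolve_right ht⟩
      have hdet := hM
      rw [det_fin_two, htr] at hdet
      by_cases ha : M 0 0 = 0
      · rw [ha] at hdet
        have hb : M 0 1 ≠ 0 := fun e => hdet (by rw [e]; ring)
        have hc : M 1 0 ≠ 0 := fun e => hdet (by rw [e]; ring)
        refine ⟨(-(M 0 1 / M 1 0), M 1 0 / M 0 1), Subtype.ext ((cl_eq_cl _ _).2 ⟨M 0 1, hb, ?_⟩)⟩
        have hv : 1 + -(M 0 1 / M 1 0) * (M 1 0 / M 0 1) = 0 := by field_simp; ring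
        ext i j
        fin_cases i <;> fin_cases j <;> simp [m, if_pos hv, ha, htr, mul_div_cancel₀ _ hb]
      · refine ⟨(M 0 1 / M 0 0, M 1 0 / M 0 0), Subtype.ext ((cl_eq_cl _ _).2 ⟨M 0 0, ha, ?_⟩)⟩
        have hv : ¬ 1 + M 0 1 / M 0 0 * (M 1 0 / M 0 0) = 0 := by
          intro e
          apply hdet
          field_simp at e
          linear_combination -e
        ext i j
        fin_cases i <;> fin_cases j <;> simp [m, if_neg hv, htr, mul_div_cancel₀ _ ha]
  rw [← Nat.card_eq_of_bijective _ hbij, Nat.card_prod, Nat.card_eq_fintype_card]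

/-- The number of elements of order `p`. -/
theorem card_order_char {p : ℕ} [CharP F p] (hp : p.Prime) (h2 : (2 : F) ≠ 0) :
    Nat.card {g : PGL(2, F) // orderOf g = p} = Fintype.card F * Fintype.card F - 1 := by
  haveI := Fact.mk hp
  let n : F × F → Matrix (Fin 2) (Fin 2) F := fun v =>
    if v.2 = 0 then !![0, v.1; 0, 0] else !![v.1, -(v.1 * v.1) / v.2; v.2, -v.1]
  have hn : ∀ v, n v * n v = 0 := by
    intro v
    by_cases hv : v.2 = 0
    · ext i j; fin_cases i <;> fin_cases j <;> simp [n, hv]
    · ext i j; fin_cases i <;> fin_cases j <;> simp [n, hv] <;> field_simp <;> ring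
  have hm : ∀ v, (1 + n v).det ≠ 0 := by
    intro v
    have : (1 + n v) * (1 - n v) = 1 := by noncomm_ring; rw [hn]; simp
    intro e
    have h := congrArg Matrix.det this
    rw [det_mul, e, zero_mul, det_one] at h
    exact zero_ne_one h
  have hord : ∀ v : {v : F × F // v ≠ 0}, orderOf (cl (1 + n v.1) (hm v.1)) = p := by
    rintro ⟨v, hv⟩
    refine orderOf_eq_prime ?_ ?_
    · obtain ⟨h, e⟩ := cl_pow (hm v) p
      rw [e, cl_eq_one]
      have hz : n v ^ p = 0 := by
        rw [show p = 2 + (p - 2) by have := hp.two_le; omega, pow_add, sq, hn, zero_mul]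
      simp [add_pow_char_of_commute p (Commute.one_left (n v)), hz]
    · rw [Ne, cl_eq_one]
      rintro ⟨e01, e10, -⟩
      apply hv
      by_cases hv2 : v.2 = 0
      · simp [n, hv2] at e01; exact Prod.ext e01 hv2
      · simp [n, hv2] at e10
  have hbij : Function.Bijective (fun v : {v : F × F // v ≠ 0} =>
      (⟨cl (1 + n v.1) (hm v.1), hord v⟩ : {g : PGL(2, F) // orderOf g = p})) := by
    constructor
    · rintro ⟨v, hv0⟩ ⟨w, hw0⟩ h
      obtain ⟨s, -, e⟩ := (cl_eq_cl _ _).1 (congrArg Subtype.val h)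
      have e00 := congrFun (congrFun e 0) 0
      have e01 := congrFun (congrFun e 0) 1
      have e10 := congrFun (congrFun e 1) 0
      have e11 := congrFun (congrFun e 1) 1
      have hs : s = 1 := by
        by_cases hv : v.2 = 0 <;> by_cases hw : w.2 = 0 <;>
          simp [n, hv, hw] at e00 e11 <;>
          exact mul_right_cancel₀ h2 (by linear_combination -e00 - e11)
      subst hs
      refine Subtype.ext ?_
      by_cases hv : v.2 = 0 <;> by_cases hw : w.2 = 0 <;> simp [n, hv, hw] at e00 e01 e10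
      · exact Prod.ext e01.symm (hv.trans hw.symm)
      · exact absurd e10.symm hv
      · exact Prod.ext e00.symm e10.symm
    · rintro ⟨g, hg⟩
      obtain ⟨M, hM, rfl⟩ := exists_cl g
      have h1 : cl M hM ≠ 1 := fun e => by rw [e, orderOf_one] at hg; exact hp.ne_one hg.symm
      obtain ⟨hp', e⟩ := cl_pow hM p
      have hpw := pow_orderOf_eq_one (cl M hM)
      rw [hg, e, cl_eq_one] at hpw
      obtain ⟨e01, e10, e00⟩ := hpw
      obtain ⟨ν, hν⟩ := (frobeniusEquiv F p).surjective ((M ^ p) 0 0)
      rw [frobeniusEquiv_apply, frobenius_def] at hν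
      set N := M - ν • (1 : Matrix (Fin 2) (Fin 2) F) with hN
      have hNp : N ^ p = 0 := by
        rw [hN, sub_pow_char_of_commute p ((Commute.one_right M).smul_right ν), smul_pow, one_pow]
        ext i j
        fin_cases i <;> fin_cases j <;> simp [e01, e10, ← e00, hν]
      have hnil : IsNilpotent N := ⟨p, hNp⟩
      have ht : N.trace = 0 := (Matrix.isNilpotent_trace_of_isNilpotent hnil).eq_zero
      have hd : N.det = 0 := by
        have := congrArg Matrix.det hNp
        rw [det_pow, Matrix.det_zero] at this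
        exact eq_zero_of_pow_eq_zero this
      rw [trace_fin_two] at ht
      rw [det_fin_two] at hd
      have hNd : N 1 1 = -N 0 0 := by linear_combination ht
      rw [hNd] at hd
      have hν0 : ν ≠ 0 := by
        intro e0
        apply hp'
        rw [show M = N by simp [hN, e0], hNp, Matrix.det_zero]
      have hM' : M = ν • 1 + N := by simp [hN]
      by_cases hc : N 1 0 = 0
      · have ha : N 0 0 = 0 := mul_self_eq_zero.1 (by rw [hc] at hd; linear_combination -hd)
        have hb : N 0 1 ≠ 0 := by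
          intro hb
          apply h1
          rw [cl_eq_one, hM']
          simp [hb, hc, ha, hNd]
        refine ⟨⟨(N 0 1 / ν, 0), fun e => div_ne_zero hb hν0 (congrArg Prod.fst e)⟩,
          Subtype.ext ((cl_eq_cl _ _).2 ⟨ν, hν0, ?_⟩)⟩
        rw [hM']
        ext i j
        fin_cases i <;> fin_cases j <;> simp [n, ha, hc, hNd, mul_div_cancel₀ _ hν0]
      · refine ⟨⟨(N 0 0 / ν, N 1 0 / ν), fun e => div_ne_zero hc hν0 (congrArg Prod.snd e)⟩,
          Subtype.ext ((cl_eq_cl _ _).2 ⟨ν, hν0, ?_⟩)⟩
        rw [hM']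
        ext i j
        fin_cases i <;> fin_cases j <;>
          simp [n, hc, hν0, hNd, mul_add, mul_div_cancel₀ _ hν0]
        field_simp
        linear_combination -hd
  rw [← Nat.card_eq_of_bijective _ hbij, Nat.card_eq_fintype_card, Fintype.card_subtype_compl,
    Fintype.card_subtype_eq, Fintype.card_prod]

theorem transl_mul (a b : F) :
    ZassAbelian.transl (a + b) = ZassAbelian.transl a * ZassAbelian.transl b := by
  rw [ZassAbelian.transl, ZassAbelian.transl, ZassAbelian.transl, ← map_mul]
  refine congrArg ProjGenLinGroup.mk (Units.ext ?_)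
  ext i j
  fin_cases i <;> fin_cases j <;> simp [GeneralLinearGroup.mkOfDetNeZero, add_comm]

theorem transl_zero : ZassAbelian.transl (0 : F) = 1 := by
  have h := transl_mul (0 : F) 0
  rw [add_zero] at h
  exact left_eq_mul.1 h

theorem det_unipotent (t : F) : (!![1, t; 0, 1] : Matrix (Fin 2) (Fin 2) F).det ≠ 0 := by
  simp [det_fin_two]

theorem transl_pow_char (p : ℕ) [CharP F p] (t : F) : ZassAbelian.transl t ^ p = 1 := by
  have h : ∀ k : ℕ, ZassAbelian.transl t ^ k = ZassAbelian.transl ((k : F) * t) := by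
    intro k
    induction k with
    | zero => simp [transl_zero]
    | succ k ih => rw [pow_succ, ih, ← transl_mul]; push_cast; ring_nf
  rw [h, CharP.cast_eq_zero, zero_mul, transl_zero]

theorem eq_transl_of_commute {g : PGL(2, F)} {t : F} (ht : t ≠ 0)
    (h : g * ZassAbelian.transl t = ZassAbelian.transl t * g) :
    ∃ s : F, g = ZassAbelian.transl s := by
  obtain ⟨M, hM, rfl⟩ := exists_cl g
  rw [show ZassAbelian.transl t = cl _ (det_unipotent t) from rfl,
    cl_mul _ _ (by rw [det_mul]; exact mul_ne_zero hM (det_unipotent t)),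
    cl_mul _ _ (by rw [det_mul]; exact mul_ne_zero (det_unipotent t) hM), cl_eq_cl] at h
  obtain ⟨s, -, e⟩ := h
  have e00 := congrFun (congrFun e 0) 0
  have e01 := congrFun (congrFun e 0) 1
  have e10 := congrFun (congrFun e 1) 0
  have e11 := congrFun (congrFun e 1) 1
  simp [Matrix.mul_apply, Fin.sum_univ_two] at e00 e01 e10 e11
  have hc : M 1 0 = 0 := by
    by_contra hc
    have hs : s = 1 := (mul_right_cancel₀ hc (by linear_combination e10) : (1 : F) = s).symm
    subst hs
    exact mul_ne_zero ht hc (by linear_combination e00)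
  have hdet := hM
  rw [det_fin_two, hc, mul_zero, sub_zero] at hdet
  rw [hc] at e00 e11
  have hs : s = 1 := (mul_right_cancel₀ (mul_ne_zero_iff.1 hdet).1
    (by linear_combination e00) : (1 : F) = s).symm
  subst hs
  have had : M 0 0 = M 1 1 := mul_left_cancel₀ ht (by linear_combination -e01)
  refine ⟨M 0 1 / M 0 0, ?_⟩
  rw [show ZassAbelian.transl (M 0 1 / M 0 0) = cl _ (det_unipotent _) from rfl, eq_comm, cl_eq_cl]
  refine ⟨M 0 0, (mul_ne_zero_iff.1 hdet).1, ?_⟩
  ext i j
  fin_cases i <;> fin_cases j <;>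
    simp [hc, had, mul_div_cancel₀ _ (mul_ne_zero_iff.1 hdet).2]

/-- Every order other than `1` and `p` occurs a multiple of `q` times. -/
theorem card_dvd_other {p : ℕ} [CharP F p] (hp : p.Prime) {k : ℕ} (h1 : k ≠ 1) (hk : k ≠ p) :
    Fintype.card F ∣ Nat.card {g : PGL(2, F) // orderOf g = k} := by
  letI : MulAction (Multiplicative F) {g : PGL(2, F) // orderOf g = k} :=
    { smul := fun t g => ⟨ZassAbelian.transl t.toAdd * g.1 * (ZassAbelian.transl t.toAdd)⁻¹, by
        rw [← MulAut.conj_apply, MulEquiv.orderOf_eq]; exact g.2⟩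
      one_smul := fun g => Subtype.ext (by
        show ZassAbelian.transl (0 : F) * g.1 * (ZassAbelian.transl (0 : F))⁻¹ = g.1
        rw [transl_zero]; group)
      mul_smul := fun a b g => Subtype.ext (by
        show ZassAbelian.transl (a.toAdd + b.toAdd) * g.1 * (ZassAbelian.transl (a.toAdd + b.toAdd))⁻¹ =
          ZassAbelian.transl a.toAdd * (ZassAbelian.transl b.toAdd * g.1 *
            (ZassAbelian.transl b.toAdd)⁻¹) * (ZassAbelian.transl a.toAdd)⁻¹
        rw [transl_mul]; group) }
  have h := card_dvd_free (A := Multiplicative F) (X := {g : PGL(2, F) // orderOf g = k}) fun g => by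
    rw [Subgroup.eq_bot_iff_forall]
    intro a ha
    by_contra hne
    have ht : a.toAdd ≠ 0 := fun e => hne (toAdd_eq_zero.1 e)
    have e : ZassAbelian.transl a.toAdd * g.1 * (ZassAbelian.transl a.toAdd)⁻¹ = g.1 :=
      congrArg Subtype.val (MulAction.mem_stabilizer_iff.1 ha)
    obtain ⟨s, hs⟩ := eq_transl_of_commute ht (mul_inv_eq_iff_eq_mul.1 e).symm
    have hdvd : orderOf g.1 ∣ p := by rw [hs]; exact orderOf_dvd_of_pow_eq_one (transl_pow_char p s)
    rw [g.2] at hdvd
    rcases hp.eq_one_or_self_of_dvd _ hdvd with h' | h'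
    · exact h1 h'
    · exact hk h'
  rwa [Nat.card_congr Multiplicative.toAdd, Nat.card_eq_fintype_card] at h

end CfsgLib.PGLCount35
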